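import Mathlib

/-! Actions in which every point stabiliser contains a Sylow subgroup as a normal subgroup. -/

set_option autoImplicit false

namespace Cfsg.Lib.Pal

open Subgroup

theorem val_aux {t N a b : ℕ} (ht : 2 ≤ t) (hb : 1 ≤ b) (hab : b < a)
    (h : t ^ a - 1 = N * (t ^ b - 1)) :
    (t : ℤ) ^ b ∣ (N : ℤ) - 1 ∧ ¬ (t : ℤ) ^ (b + 1) ∣ (N : ℤ) - 1 := by
  obtain ⟨c, rfl⟩ := Nat.exists_eq_add_of_lt hab
  obtain ⟨d, rfl⟩ := Nat.exists_eq_add_of_le' hb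
  have h1 : 1 ≤ t ^ (d + 1 + c + 1) := Nat.one_le_pow _ _ (by omega)
  have h2 : 1 ≤ t ^ (d + 1) := Nat.one_le_pow _ _ (by omega)
  zify [h1, h2] at h
  have h3 : (N : ℤ) - 1 = (t : ℤ) ^ (d + 1) * (N - t ^ (c + 1)) := by
    linear_combination h
  refine ⟨⟨_, h3⟩, fun h4 => ?_⟩
  have ht0 : (t : ℤ) ^ (d + 1) ≠ 0 := by positivity
  rw [h3, pow_succ _ (d + 1), mul_dvd_mul_iff_left ht0] at h4
  have h5 : (t : ℤ) ∣ (N : ℤ) - 1 := ⟨t ^ d * (N - t ^ (c + 1)), by rw [h3]; ring⟩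
  have h6 : (t : ℤ) ∣ 1 := by
    have := dvd_sub (dvd_add h4 (dvd_pow_self (t : ℤ) (Nat.succ_ne_zero c))) h5
    simpa using this
  have := Int.le_of_dvd one_pos h6
  omega

theorem exp_eq {t N a b c d : ℕ} (ht : 2 ≤ t) (hb : 1 ≤ b) (hab : b < a) (hd : 1 ≤ d)
    (hcd : d < c) (h : t ^ a - 1 = N * (t ^ b - 1)) (h' : t ^ c - 1 = N * (t ^ d - 1)) :
    a = c := by
  obtain ⟨h1, h2⟩ := val_aux ht hb hab h
  obtain ⟨h3, h4⟩ := val_aux ht hd hcd h'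
  have : b = d := by
    rcases lt_trichotomy b d with h5 | h5 | h5
    · exact absurd ((pow_dvd_pow _ h5).trans h3) h2
    · exact h5
    · exact absurd ((pow_dvd_pow _ h5).trans h1) h4
  subst this
  have h5 : 1 ≤ t ^ a := Nat.one_le_pow _ _ (by omega)
  have h6 : 1 ≤ t ^ c := Nat.one_le_pow _ _ (by omega)
  exact Nat.pow_right_injective ht (show t ^ a = t ^ c by omega)

variable {X W : Type*} [Group X] [Group W]

/-- The fixed points of a subgroup. -/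
def fx (φ : X →* MulAut W) (S : Subgroup X) : Subgroup W where
  carrier := {w | ∀ g ∈ S, φ g w = w}
  mul_mem' ha hb g hg := by rw [map_mul, ha g hg, hb g hg]
  one_mem' g _ := map_one _
  inv_mem' ha g hg := by rw [map_inv, ha g hg]

theorem mem_fx {φ : X →* MulAut W} {S : Subgroup X} {w : W} :
    w ∈ fx φ S ↔ ∀ g ∈ S, φ g w = w := Iff.rfl

/-- The stabiliser of every non-identity element has a normal Sylow `l`-subgroup which is a Sylow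
subgroup of the whole group. -/
def NP (φ : X →* MulAut W) (l : ℕ) : Prop :=
  ∀ w : W, w ≠ 1 → ∃ S : Sylow l X, w ∈ fx φ S ∧
    ∀ g : X, (∃ k : ℕ, g ^ l ^ k = 1) → φ g w = w → g ∈ (S : Subgroup X)

variable {φ : X →* MulAut W} {l : ℕ}

theorem map_mem_fx_smul {S : Sylow l X} {w : W} (hw : w ∈ fx φ S) (x : X) :
    φ x w ∈ fx φ ((x • S : Sylow l X) : Subgroup X) := by
  intro g hg
  rw [Sylow.coe_subgroup_smul, mem_smul_pointwise_iff_exists] at hg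
  obtain ⟨s, hs, rfl⟩ := hg
  rw [MulAut.smul_def, MulAut.conj_apply, ← MulAut.mul_apply, ← map_mul, inv_mul_cancel_right,
    map_mul, MulAut.mul_apply, hw s hs]

theorem NP.unique (h : NP φ l) {w : W} (hw : w ≠ 1) {S T : Sylow l X} (hS : w ∈ fx φ S)
    (hT : w ∈ fx φ T) : S = T := by
  obtain ⟨U, -, hU⟩ := h w hw
  have key : ∀ S : Sylow l X, w ∈ fx φ S → S = U := fun S hS =>
    Sylow.ext (S.is_maximal' U.isPGroup' fun g hg => hU g (by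
      obtain ⟨k, hk⟩ := S.isPGroup' ⟨g, hg⟩
      exact ⟨k, congrArg Subtype.val hk⟩) (hS g hg)).symm
  rw [key S hS, key T hT]

variable [Finite X] [Finite W] [hl : Fact l.Prime]

theorem card_inf_fx {W₀ : Subgroup W} (hW₀ : ∀ g, ∀ w ∈ W₀, φ g w ∈ W₀) (S T : Sylow l X) :
    Nat.card (W₀ ⊓ fx φ S : Subgroup W) = Nat.card (W₀ ⊓ fx φ T : Subgroup W) := by
  have key : ∀ S T : Sylow l X,
      Nat.card (W₀ ⊓ fx φ S : Subgroup W) ≤ Nat.card (W₀ ⊓ fx φ T : Subgroup W) := fun S T => by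
    obtain ⟨x, rfl⟩ := MulAction.exists_smul_eq X S T
    refine Nat.card_le_card_of_injective
      (fun w => ⟨φ x w, hW₀ x w w.2.1, map_mem_fx_smul w.2.2 x⟩) fun a b hab => ?_
    exact Subtype.ext ((φ x).injective (congrArg Subtype.val hab))
  exact (key S T).antisymm (key T S)

omit [Finite X] [Finite W] hl in
theorem card_ne_one (A : Subgroup W) : Nat.card {w : W // w ∈ A ∧ w ≠ 1} = Nat.card A - 1 := by
  have : {w : W | w ∈ A ∧ w ≠ 1} = (A : Set W) \ {1} := rfl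
  change Nat.card {w : W | w ∈ A ∧ w ≠ 1} = Nat.card (A : Set W) - 1
  rw [this, Nat.card_coe_set_eq, Nat.card_coe_set_eq, Set.ncard_sdiff_singleton_of_mem A.one_mem]

theorem NP.count (h : NP φ l) {W₀ : Subgroup W} (hW₀ : ∀ g, ∀ w ∈ W₀, φ g w ∈ W₀)
    (S : Sylow l X) : Nat.card W₀ - 1 =
      Nat.card (Sylow l X) * (Nat.card (W₀ ⊓ fx φ S : Subgroup W) - 1) := by
  have := Fintype.ofFinite (Sylow l X)
  let f : (Σ T : Sylow l X, {w : W // w ∈ W₀ ⊓ fx φ T ∧ w ≠ 1}) → {w : W // w ∈ W₀ ∧ w ≠ 1} :=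
    fun x => ⟨x.2.1, x.2.2.1.1, x.2.2.2⟩
  have hf : Function.Bijective f := by
    constructor
    · rintro ⟨T, w, hw⟩ ⟨T', w', hw'⟩ e
      obtain rfl : w = w' := congrArg Subtype.val e
      obtain rfl : T = T' := h.unique hw.2 hw.1.2 hw'.1.2
      rfl
    · rintro ⟨w, hw, hw1⟩
      obtain ⟨T, hT, -⟩ := h w hw1
      exact ⟨⟨T, w, ⟨hw, hT⟩, hw1⟩, rfl⟩
  rw [← card_ne_one, ← Nat.card_eq_of_bijective f hf, Nat.card_sigma]
  simp_rw [card_ne_one, fun T => card_inf_fx (φ := φ) hW₀ T S]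
  simp

omit [Finite W] hl in
theorem NP.one_lt (h : NP φ l) {g : X} (hg : ∃ k : ℕ, g ^ l ^ k = 1) (hne : φ g ≠ 1) :
    1 < Nat.card (Sylow l X) := by
  by_contra h1
  have h2 : Subsingleton (Sylow l X) := by
    rwa [Finite.one_lt_card_iff_nontrivial, not_nontrivial_iff_subsingleton] at h1
  have h3 : IsPGroup l (zpowers g) := by
    obtain ⟨k, hk⟩ := hg
    rintro ⟨_, n, rfl⟩
    refine ⟨k, Subtype.ext ?_⟩
    change (g ^ n) ^ l ^ k = 1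
    rw [← zpow_natCast, ← zpow_mul, mul_comm, zpow_mul, zpow_natCast, hk, one_zpow]
  obtain ⟨S, hS⟩ := h3.exists_le_sylow
  refine hne (MulEquiv.ext fun w => ?_)
  by_cases hw : w = 1
  · rw [hw, map_one, map_one]
  · obtain ⟨T, hT, -⟩ := h w hw
    exact hT g (Subsingleton.elim S T ▸ hS (mem_zpowers g))

theorem NP.data (h : NP φ l) (h1 : 1 < Nat.card (Sylow l X)) {W₀ : Subgroup W}
    (hW₀ : ∀ g, ∀ w ∈ W₀, φ g w ∈ W₀) {t : ℕ} [ht : Fact t.Prime] (hp : IsPGroup t W₀)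
    (hne : W₀ ≠ ⊥) (S : Sylow l X) : ∃ n m : ℕ, Nat.card W₀ = t ^ n ∧
      Nat.card (W₀ ⊓ fx φ S : Subgroup W) = t ^ m ∧ 1 ≤ m ∧ m < n ∧
      t ^ n - 1 = Nat.card (Sylow l X) * (t ^ m - 1) := by
  obtain ⟨n, hn⟩ := IsPGroup.iff_card.1 hp
  obtain ⟨m, hm⟩ := IsPGroup.iff_card.1 (hp.to_inf_left (K := fx φ S))
  have h2 := h.count hW₀ S
  have h3 : 1 < Nat.card W₀ := (one_lt_card_iff_ne_bot _).2 hne
  rw [hn] at h3
  rw [hn, hm] at h2
  have h4 : 1 ≤ m := by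
    rcases m with _ | m
    · simp at h2; omega
    · omega
  have h5 : 1 < t ^ m := Nat.one_lt_pow (by omega) ht.out.one_lt
  refine ⟨n, m, hn, hm, h4, (Nat.pow_lt_pow_iff_right ht.out.one_lt).1 ?_, h2⟩
  have : 2 * (t ^ m - 1) ≤ Nat.card (Sylow l X) * (t ^ m - 1) := Nat.mul_le_mul_right _ h1
  omega

theorem NP.card_eq {W' : Type*} [Group W'] [Finite W'] {ψ : X →* MulAut W'} (h : NP φ l)
    (h' : NP ψ l) (h1 : 1 < Nat.card (Sylow l X)) {A : Subgroup W} {B : Subgroup W'}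
    (hA : ∀ g, ∀ w ∈ A, φ g w ∈ A) (hB : ∀ g, ∀ w ∈ B, ψ g w ∈ B) {t : ℕ} [ht : Fact t.Prime]
    (pA : IsPGroup t A) (pB : IsPGroup t B) (hA0 : A ≠ ⊥) (hB0 : B ≠ ⊥) :
    Nat.card A = Nat.card B := by
  obtain ⟨S⟩ : Nonempty (Sylow l X) := inferInstance
  obtain ⟨a, b, e1, -, h2, h3, h4⟩ := h.data h1 hA pA hA0 S
  obtain ⟨c, d, e2, -, h5, h6, h7⟩ := h'.data h1 hB pB hB0 S
  rw [e1, e2, exp_eq ht.out.two_le h2 h3 h5 h6 h4 h7]

omit [Finite W] in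
theorem exists_lift {X' : Type*} [Group X'] {f : X →* X'} {g : X} {k : ℕ}
    (h : f g ^ l ^ k = 1) : ∃ x ∈ zpowers g, (∃ j : ℕ, x ^ l ^ j = 1) ∧ f x = f g := by
  obtain ⟨j, m, hm, e⟩ := Nat.exists_eq_pow_mul_and_not_dvd (orderOf_pos g).ne' l hl.out.ne_one
  have hc : (l ^ k).Coprime m := ((hl.out.coprime_iff_not_dvd.2 hm).pow_left k)
  obtain ⟨c, h1, h2⟩ := Nat.chineseRemainder hc 1 0
  refine ⟨g ^ c, pow_mem (mem_zpowers g) c, ⟨j, ?_⟩, ?_⟩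
  · rw [← pow_mul, ← orderOf_dvd_iff_pow_eq_one, e, mul_comm c]
    exact Nat.mul_dvd_mul_left _ ((Nat.modEq_zero_iff_dvd).1 h2)
  · rw [map_pow, ← pow_one (f g), ← pow_mul, one_mul, pow_eq_pow_iff_modEq]
    exact h1.of_dvd (orderOf_dvd_of_pow_eq_one h)

omit [Finite W] in
theorem NP.of_surj (h : NP φ l) {X' : Type*} [Group X'] {f : X →* X'} (hf : Function.Surjective f)
    {φ' : X' →* MulAut W} (hφ : ∀ g, φ' (f g) = φ g) : NP φ' l := by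
  intro w hw
  obtain ⟨S, h1, h2⟩ := h w hw
  refine ⟨S.mapSurjective hf, ?_, ?_⟩
  · rintro _ ⟨g, hg, rfl⟩
    rw [hφ]; exact h1 g hg
  · rintro g ⟨k, hk⟩ hg
    obtain ⟨g, rfl⟩ := hf g
    obtain ⟨x, -, h3, h4⟩ := exists_lift hk
    rw [← h4] at hg ⊢
    exact ⟨x, h2 x h3 (hφ x ▸ hg), rfl⟩

end Cfsg.Lib.Pal
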